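import Cfsg.Agent.Ab2.RD
import Cfsg.Agent.Sig.S4A
import Cfsg.Agent.Sig.OutSol

/-! Groups all of whose elements outside a normal subgroup have prime power order. -/

set_option autoImplicit false
set_option linter.unusedSectionVars false

namespace CF.MS
open Subgroup Cfsg CF.BG CF.Sig

variable {G : Type*} [Group G] [Finite G] {N L U : Subgroup G} [N.Normal] {π : Set ℕ} {x u : G}
  (h : ∀ x : G, x ∉ N → IsPrimePow (orderOf x))
include h

theorem off_cc (hx : x ∉ N) (hu : u ∈ N) (c : x * u = u * x) (a : PiElt π x) (b : PiElt πᶜ u) :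
    u = 1 := by
  obtain ⟨s, k, hs, -, e⟩ := h (x * u) fun m => hx ((N.mul_mem_cancel_right hu).1 m)
  have k : PiElt {s} (x * u) := fun q hq d =>
    (Nat.prime_dvd_prime_iff_eq hq hs.nat_prime).1 (hq.dvd_of_dvd_pow (e ▸ d))
  have co := PiNat.coprime a b
  by_cases m : s ∈ π
  · exact ((k.of_mem_zpowers (mem_zpowers_mul_right c co)).of_single m).eq_one b
  · exact absurd (a.eq_one ((k.of_mem_zpowers (mem_zpowers_mul_left c co)).of_single' m) ▸ N.one_mem) hx

theorem off_cen (p : ⁅L, L⁆ = L) (hU : U ≤ N) (o : PiGrp {2}ᶜ U) (n : L ≤ 𝐍 U)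
    (d : ∀ x ∈ L, x ∈ N → PiElt {2} x → x ∈ 𝐂 U) (nN : ¬ L ≤ N) : U = ⊥ := by
  have n' : L ≤ 𝐍 (𝐂 U) := n.trans (norm_le_norm_cent U)
  have one : ∀ u ∈ U, u⁻¹ = u → u = 1 := fun u hu e =>
    (piElt_of_pow_eq_one Nat.prime_two (by rw [sq, ← inv_eq_iff_mul_eq_one, e])).eq_one (o.elt hu)
  by_contra U1
  have key : L ≤ 𝐂 U := by
    by_contra nc
    obtain ⟨z, hz, oz⟩ : ∃ z ∈ qt (𝐂 U) L, orderOf z = 2 := by
      refine BG.exists_mem_orderOf_eq Nat.prime_two (by_contra fun k => nc ((qt_eq_bot n').1 ?_))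
      exact (sol_of_odd' fun q _ e m => k (by rwa [show q = 2 from m] at e)).eq_bot_of_le_der
        (by rw [← qt_comm n' n', p])
    obtain ⟨a, aL, a2, rfl⟩ := exists_pi_lift n' hz (π := {2}) fun q hq e =>
      (Nat.prime_dvd_prime_iff_eq hq Nat.prime_two).1 (oz ▸ e)
    have aa : a * a ∈ 𝐂 U := by
      rw [← qe_eq_one (mul_mem (n' aL) (n' aL)), qe_mul (n' aL) (n' aL), ← sq, ← oz, pow_orderOf_eq_one]
    have aC : a ∉ 𝐂 U := fun m => by simp [(qe_eq_one (n' aL)).2 m] at oz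
    have iv : ∀ u ∈ U, a * u * a⁻¹ = u⁻¹ := fun u hu => by
      obtain ⟨y, hy, rfl⟩ := Ab2.exists_comm_of_fpf (n aL) (eq_bot_iff.2 fun v m =>
        off_cc h (fun k => aC (d a aL k a2)) (hU m.1) (mem_centralizer_singleton_iff.1 m.2).symm a2
          (o.elt m.1)) hu
      have := aa y hy
      calc _ = a * y⁻¹ * a⁻¹ * (a * a * y) * a⁻¹ * a⁻¹ := by group
        _ = _ := by rw [← this]; group
    refine nc (le_of_pi'_elts (p := 2) p n' fun y yL oy => ?_)
    have pw : ∀ k, ∀ u ∈ U, (a * y) ^ k * u * ((a * y) ^ k)⁻¹ = (y ^ k * u * (y ^ k)⁻¹) ^ ((-1 : ℤ) ^ k) := by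
      intro k
      induction k with
      | zero => simp
      | succ k ih =>
        intro u hu
        have m : y * u * y⁻¹ ∈ U := (mem_normalizer_iff.1 (n yL) u).1 hu
        calc _ = (a * y) ^ k * (a * (y * u * y⁻¹) * a⁻¹) * ((a * y) ^ k)⁻¹ := by rw [pow_succ]; group
          _ = _ := by
            rw [iv _ m, ih _ (inv_mem m), pow_succ, pow_succ, mul_neg_one, zpow_neg, ← inv_zpow]
            congr 1; group
    obtain ⟨u, hu, u1⟩ := (bot_or_exists_ne_one U).resolve_left U1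
    have ev : ∀ k, Odd k → orderOf y ∣ k → (a * y) ^ k ∉ 𝐂 U := fun k ok e m => by
      have := pw k u hu
      rw [orderOf_dvd_iff_pow_eq_one.1 e, ok.neg_one_pow, ← m u hu] at this
      exact u1 (one u hu (by simpa using this.symm))
    have oy' : Odd (orderOf y) := Nat.not_even_iff_odd.1 fun e => oy 2 Nat.prime_two e.two_dvd rfl
    obtain ⟨i, j, oj, e⟩ := Nat.exists_eq_two_pow_mul_odd (orderOf_pos (a * y)).ne'
    have w2 : PiElt {2} ((a * y) ^ (orderOf y * j)) := fun q hq m =>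
      (Nat.prime_dvd_prime_iff_eq hq Nat.prime_two).1 (hq.dvd_of_dvd_pow (n := i) (m.trans
        (orderOf_dvd_of_pow_eq_one (by
          rw [← pow_mul, mul_assoc, mul_comm j, ← e, mul_comm, pow_mul, pow_orderOf_eq_one, one_pow]))))
    have e2 := ev _ (oy'.mul oj) (dvd_mul_right _ _)
    obtain ⟨s, k, hs, -, e'⟩ := h (a * y) fun m => e2 (d _ (pow_mem (mul_mem aL yL) _) (pow_mem m _) w2)
    obtain rfl : s = 2 := by
      by_contra s2
      have : PiElt {2}ᶜ (a * y) := fun q hq m m' => s2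
        (((Nat.prime_dvd_prime_iff_eq hq hs.nat_prime).1 (hq.dvd_of_dvd_pow (e' ▸ m))).symm.trans m')
      exact e2 (w2.eq_one (this.pow _) ▸ one_mem _)
    have c2 : y ^ (2 ^ k * 2) ∈ 𝐂 U := fun u hu => by
      have := pw (2 ^ k * 2) u hu
      rw [Even.neg_one_pow (by simp), zpow_one, pow_mul (a * y), e', pow_orderOf_eq_one] at this
      rw [e', eq_comm, ← mul_inv_eq_iff_eq_mul, ← this]; simp
    exact zpowers_le.2 c2 (mem_zpowers_pow_iff.2 (by
      rw [← pow_succ]; exact (Nat.coprime_two_left.2 oy').pow_left _))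
  obtain ⟨r, hr, dr⟩ := Nat.exists_prime_and_dvd (mt card_eq_one.1 U1)
  obtain ⟨u, hu, ou⟩ := BG.exists_mem_orderOf_eq hr dr
  refine nN (le_of_pi'_elts (p := r) p le_normalizer_of_normal fun x hx k => by_contra fun xN => ?_)
  have := off_cc h xN (hU hu) (key hx u hu).symm k
    (piElt_of_pow_eq_one hr (ou ▸ pow_orderOf_eq_one u)).compl_compl
  exact hr.ne_one (by rw [← ou, this, orderOf_one])

theorem s3901 (hns : ¬ PiGrp {2} N) : Group.IsSolvable (G ⧸ N) := by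
  by_contra s
  obtain ⟨p, hp, dp, p2⟩ : ∃ p : ℕ, p.Prime ∧ p ∣ ♯N ∧ p ≠ 2 := by
    by_contra! k; exact hns k
  obtain ⟨P, hP⟩ := exists_syl p N
  have mN : N.map (QuotientGroup.mk' N) = ⊥ := QuotientGroup.map_mk'_self N
  obtain ⟨L, ⟨lP, b⟩, mn⟩ := Ab2.exists_min_card
    (P := fun L => L ≤ 𝐍 P ∧ ¬ Sol (L.map (QuotientGroup.mk' N))) (H := ⊤ ⊓ 𝐍 P) ⟨inf_le_right, fun k => by
      have := hP.syl_frattini_sup (M := ⊤) ⟨le_top, le_normalizer_of_normal⟩
      rw [← bot_sup_eq (Subgroup.map _ _), ← mN, ← Subgroup.map_sup, this,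
        map_top_of_surjective _ (QuotientGroup.mk'_surjective N)] at k
      exact s (@Group.isSolvable_of_surjective _ _ _ _ (⊤ : Subgroup (G ⧸ N)).subtype
        (fun x => ⟨⟨x, trivial⟩, rfl⟩) k)⟩
  have red : ∀ X ≤ L, ¬ Sol (X.map (QuotientGroup.mk' N)) → X = L := fun X a c =>
    eq_of_le_of_card_ge a (mn X ⟨a.trans lP, c⟩)
  have pf : ⁅L, L⁆ = L := red _ (der_le L) fun k => b (by
    rw [map_commutator] at k
    exact Sol.of_qt k (le_normalizer.trans (norm_der _)) (abel_qt_der _).sol)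
  have nN : ¬ L ≤ N := fun k => b (by rw [le_bot_iff.1 ((map_mono k).trans mN.le)]; exact Abel.sol abel_bot)
  have nD : N ⊓ L ⊴ L := normalIn_inf_right le_normalizer_of_normal
  have ns : ∀ q Q, Syl q Q (N ⊓ L) → L ≤ 𝐍 Q := fun q Q hQ =>
    (red (L ⊓ 𝐍 Q) inf_le_left fun k => b (by
      rwa [← hQ.syl_frattini_sup nD, Subgroup.map_sup,
        le_bot_iff.1 ((map_mono inf_le_left).trans mN.le), bot_sup_eq])).ge.trans inf_le_right
  have nil : Nil (N ⊓ L) := nil_of_forall_syl fun q _ _ =>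
    (exists_syl q _).imp fun Q hQ => ⟨hQ, inf_le_right.trans (ns q Q hQ)⟩
  have D2 : PiGrp {2} (N ⊓ L) := fun q hq dq => by_contra fun q2 => by
    obtain ⟨Q, hQ⟩ := exists_syl q (N ⊓ L)
    exact hQ.ne_bot hq rfl dq (off_cen h pf (hQ.le.trans inf_le_left) (hQ.pi.of_single' q2)
      (ns q Q hQ) (fun x a b c => nil.cent_of_pi (zpowers_le.2 ⟨b, a⟩) hQ.le c.zpowers
        (hQ.pi.of_single' q2) (mem_zpowers x)) nN)
  obtain ⟨r, hr, r2, rp, dr⟩ : ∃ r : ℕ, r.Prime ∧ r ≠ 2 ∧ r ≠ p ∧ r ∣ ♯L := by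
    by_contra! k
    refine b (Sol.map (sol_of_pair Nat.prime_two hp fun q hq d => ?_) _)
    by_contra! e
    simp only [Set.mem_insert_iff, Set.mem_singleton_iff, not_or] at e
    exact k q hq e.1 e.2 d
  obtain ⟨x, xL, ox⟩ := BG.exists_mem_orderOf_eq hr dr
  have px : PiElt {r} x := piElt_of_pow_eq_one hr (ox ▸ pow_orderOf_eq_one x)
  have xN : x ∉ N := fun m => hr.ne_one (by
    rw [← ox, (D2.elt ⟨m, xL⟩).eq_one (px.of_single' r2), orderOf_one])
  have nDP : N ⊓ L ≤ 𝐍 P := inf_le_right.trans lP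
  have pi : PiGrp {r}ᶜ (N ⊓ L ⊔ P) := (D2.of_single' r2.symm).sup (hP.pi.of_single' rp.symm) (.inl nDP)
  have nl : Nil (N ⊓ L ⊔ P) := nil_of_prime_fpf (H := zpowers x) (by rwa [Nat.card_zpowers, ox])
    (norm_sup (zpowers_le.2 (nD.2 xL)) (zpowers_le.2 (lP xL))) (nil.sol.sup (hP.pi.nil.sol) nDP)
    (eq_bot_iff.2 fun v m => off_cc h xN (sup_le inf_le_left hP.le m.1) (m.2 x (mem_zpowers x)) px
      (pi.elt m.1))
  exact hP.ne_bot hp rfl dp (off_cen h pf hP.le (hP.pi.of_single' p2) lP (fun y a b c =>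
    nl.cent_of_pi (zpowers_le.2 (mem_sup_left ⟨b, a⟩)) le_sup_right c.zpowers (hP.pi.of_single' p2)
      (mem_zpowers y)) nN)

end CF.MS
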